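import Cfsg.Agent.Lib.Small.W2pCore
import Cfsg.Agent.Lib.CharDeg.PermChar
import Cfsg.Agent.Lib.Perm.Prim
import Cfsg.Agent.Lib.Small.Fix

/-! Wielandt's theorem on primitive permutation groups of degree `2p`. -/

set_option autoImplicit false

namespace Cfsg.Lib.Small.W2p

open Matrix Finset MulAction Cfsg.Lib.PermChar Cfsg.Lib.Char Cfsg.Lib.Perm

variable {G Ω : Type*} [Group G] [Fintype G] [Fintype Ω] [DecidableEq Ω] [MulAction G Ω]
  {p : ℕ} [NeZero p]

variable (G) in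
/-- `M = 2E - 1` for the projection `E` onto the constituent of degree `p`. -/
structure Setup (M : Matrix Ω Ω ℂ) (e : Fin 2 × ZMod p ≃ Ω) : Prop where
  eqv : Eqv G M
  symm : Mᵀ = M
  sq : M * M = 1
  row : ∀ y, ∑ z, M y z = -1
  diag : ∀ y, M y y = 0
  tr : ∀ s, M (e (0, 0)) (e (0, s)) + M (e (1, 0)) (e (1, s)) = 0
  shift : ∃ x : G, ∀ i s, x • e (i, s) = e (i, s + 1)
  eig : ∀ A, Eqv G A → ∃ l : ℂ, (A - l • 1) * M = -(A - l • 1) ∧ M * (A - l • 1) = -(A - l • 1)

namespace Setup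

variable {M A : Matrix Ω Ω ℂ} {e : Fin 2 × ZMod p ≃ Ω} (h : Setup G M e) {y z : Ω}
include h

omit [Fintype G] in
theorem inv (hA : Eqv G A) : Inv (A.submatrix e e) := by
  obtain ⟨x, hx⟩ := h.shift
  have h1 : ∀ (n : ℕ) i s, x ^ n • e (i, s) = e (i, s + n) := fun n i s => by
    induction n with
    | zero => simp
    | succ n ih => rw [pow_succ', mul_smul, ih, hx, Nat.cast_succ, add_assoc]
  intro i k s t
  rw [submatrix_apply, submatrix_apply, ← hA (x ^ s.val) (e (i, 0)), h1, h1, ZMod.natCast_zmod_val,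
    zero_add, sub_add_cancel]

omit [Fintype G] [NeZero p] in
theorem symm' (y z : Ω) : M z y = M y z := congrFun (congrFun h.symm y) z

omit [Fintype G] [DecidableEq Ω] h in
theorem sum_row (f : Ω → ℂ) : ∑ z, f z = ∑ s, f (e (0, s)) + ∑ s, f (e (1, s)) := by
  rw [← e.sum_comp, Fintype.sum_prod_type, Fin.sum_univ_two]

omit [Fintype G] in
theorem ft_one : ft 1 (M.submatrix e e) = !![0, -1; -1, 0] := by
  have h1 := (sum_row (e := e) _).symm.trans (h.row (e (0, 0)))
  have h2 := (sum_row (e := e) _).symm.trans (h.row (e (1, 0)))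
  have h3 : ∑ s, M (e (0, 0)) (e (0, s)) + ∑ s, M (e (1, 0)) (e (1, s)) = 0 := by
    simp [← sum_add_distrib, h.tr]
  have h4 : ∑ s, M (e (0, 0)) (e (1, s)) = ∑ s, M (e (1, 0)) (e (0, s)) := by
    rw [← Equiv.sum_comp (Equiv.neg (ZMod p))]
    refine sum_congr rfl fun s _ => ?_
    simpa using (h.symm' _ _).trans (h.inv h.eqv 1 0 (-s) 0)
  ext i j
  fin_cases i <;> fin_cases j <;> simp [ft_apply]
  · linear_combination (h1 - h2 + h3 - h4) / 2
  · linear_combination (h1 + h2 - h3 + h4) / 2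
  · linear_combination (h1 + h2 - h3 - h4) / 2
  · linear_combination (h2 - h1 + h3 + h4) / 2

omit [Fintype G] [Fintype Ω] [DecidableEq Ω] [NeZero p] h in
theorem exists_ind (y z u v : Ω) : ∃ n : ℤ, orb G y z u v = n ∧ (n = 0 ∨ n = 1) := by
  simp only [orb, of_apply]
  split_ifs
  exacts [⟨1, by simp⟩, ⟨0, by simp⟩]

omit [Fintype G] [NeZero p] in
theorem orb_mul (y z u v : Ω) : orb G y z u v * M u v = orb G y z u v * M y z := by
  simp only [orb, of_apply]
  split_ifs with h1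
  · obtain ⟨g, rfl, rfl⟩ := h1
    rw [h.eqv]
  · simp

omit [Fintype G] in
theorem pair [IsPretransitive G Ω] (hyz : z ≠ y) {n : ℕ}
    (hn : Nat.card (orbit (stabilizer G y) z) = n) :
    ∃ (l : ℤ) (S T : ZMod p → ℤ), n * M y z = l ∧ S 0 = 0 ∧ (∀ s, S s = 0 ∨ S s = 1) ∧
      (∀ s, T s = 0 ∨ T s = 1) ∧ 2 * ∑ s, S s = n + l ∧ 2 * ∑ s, T s = n + l ∧
      (n : ℤ) = 2 * l ^ 2 + l + 2 * ∑ s, S s * T s ∧
      (∀ s, S s * M (e (0, 0)) (e (0, s)) = S s * M y z) ∧
      (∀ s, T s * M (e (1, 0)) (e (1, s)) = T s * M y z) ∧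
      ∀ ψ : AddChar (ZMod p) ℂ, ∑ s, (T s - S s) * ψ s =
        (∑ s, (S s + T s) * ψ s - 2 * l) * ∑ s, M (e (0, 0)) (e (0, s)) * ψ s := by
  have hA := eqv_orb (G := G) y z
  have hr := fun u => (sum_orb (G := G) y z u).trans (congrArg _ hn)
  have hd := orb_diag (G := G) hyz
  have hm := h.orb_mul y z
  choose f hf hf' using exists_ind (G := G) y z
  generalize orb G y z = A at *
  obtain ⟨l, h1, h2⟩ := h.eig A hA
  have hB : Eqv G (A - l • 1) := fun g u v => by
    simp only [Matrix.sub_apply, Matrix.smul_apply, hA g, one_apply, smul_left_cancel_iff]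
  have h3 : n * M y z = l := by
    have := congrFun (congrFun h1 y) y
    simp only [mul_apply, Matrix.sub_apply, Matrix.smul_apply, Matrix.neg_apply, one_apply, sub_mul,
      sum_sub_distrib, h.symm' y, hm, ← sum_mul, hr, hd, smul_eq_mul, mul_ite, ite_mul, mul_one,
      mul_zero, zero_mul, sum_ite_eq, mem_univ, if_true, h.diag] at this
    linear_combination this
  replace h1 := congrArg (submatrix · e e) h1
  replace h2 := congrArg (submatrix · e e) h2
  simp only [← submatrix_mul_equiv _ _ e e e, submatrix_neg, Pi.neg_apply] at h1 h2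
  have h4 := sum_sq (h.inv h.eqv) (h.inv hB) h.tr h1 h2 (by rw [transpose_submatrix, h.symm])
  have h5 := fun ψ => ft_eq ψ (h.inv h.eqv) (h.inv hB) h.tr h1 h2
  have h6 : ∀ (ψ : AddChar (ZMod p) ℂ) i, ft ψ ((A - l • 1).submatrix e e) i i =
      ∑ s, A (e (i, 0)) (e (i, s)) * ψ s - l := fun ψ i => by
    simp [ft_apply, sub_mul, sum_sub_distrib, one_apply]
  have h7 : ∀ u, ∑ v, (A - l • (1 : Matrix Ω Ω ℂ)) u v = n - l := fun u => by
    simp [sum_sub_distrib, hr, one_apply]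
  have h8 := h5 1
  rw [h.ft_one, trace_fin_two, h6, h6] at h8
  have a := fun i j => congrFun (congrFun h8 i) j
  have a1 := a 0 0
  have a2 := a 0 1
  have a3 := a 1 1
  have a4 := (sum_row (e := e) _).symm.trans (h7 (e (0, 0)))
  simp [ft_apply, one_apply] at a1 a2 a3 a4
  have b1 : 2 * ∑ s, A (e (0, 0)) (e (0, s)) = n + l := by linear_combination (a1 - a2) / 2 + a4
  have b2 : 2 * ∑ s, A (e (1, 0)) (e (1, s)) = n + l := by
    linear_combination (2 * a3 - a1 - a2) / 2 + a4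
  have hsq : ∀ u v, A u v ^ 2 = A u v := fun u v => by
    rcases hf' u v with h0 | h0 <;> simp [hf, h0]
  have h9 : ∀ u, ∑ v, (A - l • (1 : Matrix Ω Ω ℂ)) u v ^ 2 = n + l ^ 2 := fun u => by
    have : ∀ v, (A - l • (1 : Matrix Ω Ω ℂ)) u v ^ 2 = A u v + if u = v then l ^ 2 else 0 :=
      fun v => by
        by_cases h0 : u = v
        · simp [← h0, hd]
        · simp [h0, hsq]
    simp only [this, sum_add_distrib, hr, sum_ite_eq, mem_univ, if_true]
  have h10 : ∀ s : ZMod p, ((A - l • (1 : Matrix Ω Ω ℂ)) (e (0, 0)) (e (0, s)) +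
      (A - l • (1 : Matrix Ω Ω ℂ)) (e (1, 0)) (e (1, s))) ^ 2 = A (e (0, 0)) (e (0, s)) +
      A (e (1, 0)) (e (1, s)) + 2 * (A (e (0, 0)) (e (0, s)) * A (e (1, 0)) (e (1, s))) +
      if 0 = s then 4 * l ^ 2 else 0 := fun s => by
    by_cases h0 : 0 = s
    · simp [← h0, hd]
      ring
    · simp [h0, add_sq, hsq]
      ring
  have h11 : ∀ u, ∑ v, (A - l • (1 : Matrix Ω Ω ℂ)) u (e v) ^ 2 = n + l ^ 2 := fun u =>
    (e.sum_comp fun v => (A - l • (1 : Matrix Ω Ω ℂ)) u v ^ 2).trans (h9 u)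
  simp only [submatrix_apply, h11, h10,
    sum_add_distrib, ← mul_sum, sum_ite_eq, mem_univ, if_true] at h4
  obtain ⟨k, rfl⟩ : ∃ k : ℤ, l = k :=
    ⟨2 * ∑ s, f (e (0, 0)) (e (0, s)) - n, by push_cast; simp only [← hf]; linear_combination -b1⟩
  refine ⟨k, fun s => f (e (0, 0)) (e (0, s)), fun s => f (e (1, 0)) (e (1, s)), h3, ?_,
    fun s => hf' _ _, fun s => hf' _ _, ?_, ?_, ?_, fun s => hf _ _ ▸ hm _ _,
    fun s => hf _ _ ▸ hm _ _, fun ψ => ?_⟩
  · exact_mod_cast (hf _ _).symm.trans (hd _)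
  · simp only [hf] at b1
    exact_mod_cast b1
  · simp only [hf] at b2
    exact_mod_cast b2
  · apply Int.cast_injective (α := ℂ)
    push_cast
    simp only [← hf]
    linear_combination h4 + (b1 + b2) / 2
  · have c1 := congrFun (congrFun (h5 ψ) 0) 0
    have c2 := congrFun (congrFun (h5 ψ) 1) 1
    have c3 : ft ψ (M.submatrix e e) 0 0 + ft ψ (M.submatrix e e) 1 1 = 0 := by
      simp [ft_apply, ← sum_add_distrib, ← add_mul, h.tr]
    simp only [Matrix.smul_apply, trace_fin_two, h6, smul_eq_mul, Matrix.sub_apply,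
      one_apply_eq] at c1 c2
    simp only [ft_apply, submatrix_apply] at c1 c2 c3
    simp only [← hf, sub_mul, add_mul, sum_sub_distrib, sum_add_distrib]
    linear_combination (c2 - c1) / 2 - (∑ s, A (e (0, 0)) (e (0, s)) * ψ s +
      ∑ s, A (e (1, 0)) (e (1, s)) * ψ s - 2 * k) * c3 / 2

omit [Fintype G] [DecidableEq Ω] h in
theorem card_eq (e : Fin 2 × ZMod p ≃ Ω) : Fintype.card Ω = 2 * p := by
  rw [← Fintype.card_congr e, Fintype.card_prod, Fintype.card_fin, ZMod.card]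

variable [FaithfulSMul G Ω] [IsPreprimitive G Ω] (hp : p.Prime)
include hp

omit h [DecidableEq Ω] in
theorem one_lt (e : Fin 2 × ZMod p ≃ Ω) (hyz : z ≠ y) :
    1 < Nat.card (orbit (stabilizer G y) z) := by
  have h0 : stabilizer G y ≠ ⊥ := fun h0 => by
    have h1 := card_prime_of_stabilizer_eq_bot hyz.symm h0
    rw [card_eq_card_mul_stabilizer y, h0, Subgroup.card_bot, mul_one, Nat.card_eq_fintype_card,
      card_eq e] at h1
    exact Nat.not_prime_mul (by norm_num) hp.ne_one h1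
  rw [Nat.card_coe_set_eq]
  by_contra h1
  exact not_stabilizer_le h0 hyz.symm fun g hg => (Set.ncard_le_one_iff (Set.toFinite _)).1
    (not_lt.1 h1) (mem_orbit z (⟨g, hg⟩ : stabilizer G y)) (mem_orbit_self z)

theorem pair_of_ne (hyz : z ≠ y) (h0 : M y z ≠ 0) : ∃ l : ℤ, l ≠ 0 ∧ l ≠ -1 ∧
    (Nat.card (orbit (stabilizer G y) z) : ℤ) = l * (2 * l + 1) ∧ M y z * (2 * l + 1) = 1 ∧
    ∃ s, M (e (0, 0)) (e (0, s)) = M y z := by
  obtain ⟨l, S, T, h1, -, h2, -, h3, -, h4, h5, h6, -⟩ := h.pair hyz rfl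
  have h7 := one_lt (G := G) hp e hyz
  generalize Nat.card (orbit (stabilizer G y) z) = n at *
  have h8 : ∀ s, S s * T s = 0 := fun s => by
    have : ((S s * T s : ℤ) : ℂ) * M y z = 0 := by
      push_cast
      linear_combination (S s * T s * h.tr s - T s * h5 s - S s * h6 s) / 2
    exact_mod_cast (mul_eq_zero.1 this).resolve_right h0
  simp only [h8, sum_const_zero] at h4
  have h9 : l ≠ 0 := by rintro rfl; omega
  have h10 : l ≠ -1 := by rintro rfl; omega
  refine ⟨l, h9, h10, by linarith, mul_left_cancel₀ (Int.cast_ne_zero.2 h9) ?_, ?_⟩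
  · have : (n : ℂ) = ((2 * l ^ 2 + l + 2 * 0 : ℤ) : ℂ) := by rw [← h4, Int.cast_natCast]
    push_cast at this
    linear_combination h1 - M y z * this
  · by_contra! h11
    have : ∀ s, S s = 0 := fun s => (h2 s).resolve_right fun e => h11 s (by simpa [e] using h5 s)
    simp only [this, sum_const_zero] at h3
    have : l * (l + 1) = 0 := by linarith
    rcases mul_eq_zero.1 this with h | h <;> omega

theorem ne_zero (hyz : z ≠ y) : M y z ≠ 0 := fun h0 => by
  obtain ⟨l, S, T, h1, h2, h3, h4, h5, h6, h7, -, -, h8⟩ := h.pair hyz rfl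
  have h9 := one_lt (G := G) hp e hyz
  generalize Nat.card (orbit (stabilizer G y) z) = n at *
  obtain rfl : l = 0 := by exact_mod_cast (h0 ▸ h1).symm.trans (mul_zero _)
  have h10 : ∑ s, (S s - T s) ^ 2 = ∑ s, (S s + T s - 2 * (S s * T s)) :=
    sum_congr rfl fun s _ => by rcases h3 s with a | a <;> rcases h4 s with b | b <;> simp [a, b]
  rw [sum_sub_distrib, sum_add_distrib, ← mul_sum, show ∑ s, S s + ∑ s, T s -
    2 * ∑ s, S s * T s = 0 by omega, sum_eq_zero_iff_of_nonneg fun _ _ => sq_nonneg _] at h10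
  obtain rfl : S = T := funext fun s => by simpa [sub_eq_zero] using h10 s (mem_univ _)
  obtain ⟨ψ, hψ⟩ := exists_char hp
  have h11 : ∀ u v, ∃ q : ℚ, M u v = q := fun u v => by
    by_cases h12 : v = u
    · exact ⟨0, by simp [h12, h.diag]⟩
    obtain ⟨k, -, -, h13, -⟩ := h.pair h12 rfl
    have h14 := (one_lt (G := G) hp e h12).ne_bot
    exact ⟨k / Nat.card (orbit (stabilizer G u) v), by
      push_cast; rw [← h13, mul_div_cancel_left₀ _ (Nat.cast_ne_zero.2 h14)]⟩
  choose q hq using h11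
  have h12 := (h8 ψ).symm
  simp only [sub_self, zero_mul, sum_const_zero, Int.cast_zero, mul_zero, sub_zero, mul_eq_zero,
    hq] at h12
  rcases h12 with h12 | h12
  · have h13 := hψ (fun s => S s + S s) (by simpa using h12)
    have : ∀ s, S s = 0 := fun s => by simpa [h2] using h13 s
    simp only [this, sum_const_zero] at h5
    omega
  obtain ⟨w, hw⟩ : ∃ w, M y w ≠ 0 := by
    by_contra! h13
    simpa [mul_apply, h13] using congrFun (congrFun h.sq y) y
  obtain ⟨-, -, -, -, -, s, hs⟩ := h.pair_of_ne hp (fun e => hw (by rw [e, h.diag])) hw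
  exact hw (by rw [← hs, hq, hψ _ h12 s, ← hq, h.diag])

theorem rank_three (a₀ : Ω) : Nat.card (orbitRel.Quotient (stabilizer G a₀) Ω) = 3 ∧
    ∃ a : ℕ, 0 < a ∧ p = 2 * a ^ 2 + 2 * a + 1 ∧ ∀ b, b ≠ a₀ →
      Nat.card (orbit (stabilizer G a₀) b) = a * (2 * a + 1) ∨
      Nat.card (orbit (stabilizer G a₀) b) = (a + 1) * (2 * a + 1) := by
  classical
  have hc := card_eq e
  haveI : Nontrivial Ω := Fintype.one_lt_card_iff_nontrivial.1 (by have := hp.pos; omega)
  obtain ⟨b, hb⟩ := exists_ne a₀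
  obtain ⟨l, l1, l2, n1, c1, s, hs⟩ := h.pair_of_ne hp hb (h.ne_zero hp hb)
  obtain ⟨g, hg⟩ := exists_smul_eq G (e (1, 0)) a₀
  obtain ⟨b', hb'⟩ : ∃ b', M a₀ b' = -M a₀ b :=
    ⟨g • e (1, s), by rw [← hs, ← hg, h.eqv, eq_neg_iff_add_eq_zero, add_comm, h.tr]⟩
  have h1 : b' ≠ a₀ := fun e => h.ne_zero hp hb (by simpa [e, h.diag] using hb')
  obtain ⟨k, -, -, n2, c2, -⟩ := h.pair_of_ne hp h1 (h.ne_zero hp h1)
  obtain rfl : k = -l - 1 := Int.cast_injective (α := ℂ) (mul_left_cancel₀ (h.ne_zero hp hb) (by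
    rw [hb'] at c2
    push_cast
    linear_combination (c1 - c2) / 2))
  have h2 : ∀ {u v}, v ∈ orbit (stabilizer G a₀) u → M a₀ v = M a₀ u := by
    rintro u _ ⟨g, rfl⟩
    nth_rw 1 [← g.2]
    exact h.eqv _ _ _
  have h3 : Disjoint (orbit (stabilizer G a₀) b).toFinset (orbit (stabilizer G a₀) b').toFinset :=
    disjoint_left.2 fun v h3 h4 => h.ne_zero hp hb (by
      rw [Set.mem_toFinset] at h3 h4
      linear_combination ((h2 h4).trans hb' - h2 h3) / 2)
  have h4 : ∀ w, (‖M a₀ w‖ ^ 2 : ℝ) = M a₀ w ^ 2 := fun w => by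
    by_cases h4 : w = a₀
    · simp [h4, h.diag]
    obtain ⟨m, -, -, -, h5, -⟩ := h.pair_of_ne hp h4 (h.ne_zero hp h4)
    rw [eq_inv_of_mul_eq_one_left h5, show (2 * m + 1 : ℂ)⁻¹ = ((2 * m + 1 : ℝ)⁻¹ : ℝ) by simp,
      Complex.norm_real, Real.norm_eq_abs, sq_abs, Complex.ofReal_pow]
  have h5 : ∑ w, M a₀ w ^ 2 = 1 := by
    simpa only [mul_apply, h.symm' a₀, ← pow_two, one_apply_eq] using congrFun (congrFun h.sq a₀) a₀
  have h6 : ∑ w ∈ (orbit (stabilizer G a₀) b).toFinset ∪ (orbit (stabilizer G a₀) b').toFinset,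
      M a₀ w ^ 2 = 1 := by
    rw [sum_union h3, sum_congr rfl fun w hw => by rw [h2 (Set.mem_toFinset.1 hw)],
      sum_congr (s₁ := (orbit (stabilizer G a₀) b').toFinset) rfl fun w hw => by
        rw [h2 (Set.mem_toFinset.1 hw)], sum_const, sum_const, Set.toFinset_card, Set.toFinset_card,
      ← Nat.card_eq_fintype_card, ← Nat.card_eq_fintype_card, nsmul_eq_mul, nsmul_eq_mul,
      ← Int.cast_natCast, n1, ← Int.cast_natCast, n2, hb']
    push_cast
    linear_combination (M a₀ b * (2 * l + 1) + 1) * c1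
  have h7 : ∀ w, w ≠ a₀ → w ∈ orbit (stabilizer G a₀) b ∨ w ∈ orbit (stabilizer G a₀) b' := by
    intro w hw
    by_contra h7
    rw [← h6, ← sum_sdiff (subset_univ _), add_eq_right] at h5
    simp only [← h4, ← Complex.ofReal_sum, Complex.ofReal_eq_zero,
      sum_eq_zero_iff_of_nonneg fun _ _ => sq_nonneg _] at h5
    exact h.ne_zero hp hw (by simpa using h5 w (by simpa using h7))
  have h8 : (2 * p - 1 : ℂ) * M a₀ b ^ 2 = 1 := by
    refine Eq.trans ?_ h5
    rw [← sum_erase (a := a₀) _ (by simp [h.diag]), sum_congr rfl (g := fun _ => M a₀ b ^ 2)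
      fun w hw => by rcases h7 w (ne_of_mem_erase hw) with h | h <;> simp [h2 h, hb'],
      sum_const, card_erase_of_mem (mem_univ _), card_univ, hc, nsmul_eq_mul,
      Nat.cast_sub (by have := hp.pos; omega)]
    simp
  have h9 : (p : ℤ) = 2 * l ^ 2 + 2 * l + 1 := Int.cast_injective (α := ℂ) (by
    push_cast
    linear_combination (2 * l + 1) ^ 2 / 2 * h8 -
      (2 * p - 1) / 2 * (M a₀ b * (2 * l + 1) + 1) * c1)
  refine ⟨?_, ?_⟩
  · haveI := Fintype.ofFinite (orbitRel.Quotient (stabilizer G a₀) Ω)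
    have h10 : ∀ u v : Ω, M a₀ u ≠ M a₀ v → Quotient.mk (orbitRel (stabilizer G a₀) Ω) u ≠ ⟦v⟧ :=
      fun u v h10 h11 => h10 (h2 (Quotient.exact h11))
    rw [Nat.card_eq_fintype_card, ← card_univ, card_eq_three]
    refine ⟨⟦a₀⟧, ⟦b⟧, ⟦b'⟧, h10 _ _ (h.diag _ ▸ (h.ne_zero hp hb).symm),
      h10 _ _ (h.diag _ ▸ (h.ne_zero hp h1).symm), h10 _ _ fun e => h.ne_zero hp hb (by
        linear_combination (e + hb') / 2), (eq_univ_of_forall fun w => ?_).symm⟩
    obtain ⟨w, rfl⟩ := Quotient.exists_rep w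
    simp only [mem_insert, mem_singleton]
    by_cases hw : w = a₀
    · exact Or.inl (hw ▸ rfl)
    exact Or.inr ((h7 w hw).imp (fun h => Quotient.sound h) fun h => Quotient.sound h)
  have h10 : ∀ w, w ≠ a₀ → (Nat.card (orbit (stabilizer G a₀) w) : ℤ) = l * (2 * l + 1) ∨
      (Nat.card (orbit (stabilizer G a₀) w) : ℤ) = (l + 1) * (2 * l + 1) := fun w hw =>
    (h7 w hw).imp (fun h => by rw [orbit_eq_iff.2 h, n1]) fun h => by
      rw [orbit_eq_iff.2 h, n2]; ring
  rcases l with a | a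
  · rw [Int.ofNat_eq_natCast] at *
    exact ⟨a, Nat.pos_of_ne_zero fun e => l1 (by simp [e]), by exact_mod_cast h9,
      fun w hw => by exact_mod_cast h10 w hw⟩
  · rw [Int.negSucc_eq] at *
    refine ⟨a, Nat.pos_of_ne_zero fun e => l2 (by simp [e]), by zify; linear_combination h9,
      fun w hw => (h10 w hw).symm.imp (fun h => ?_) fun h => ?_⟩ <;> zify <;> linear_combination h

end Setup

end Cfsg.Lib.Small.W2p
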