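import Cfsg.Agent.Lib.Small.W2p
import Cfsg.Agent.Lib.Perm.PrimeDegree
import Cfsg.Agent.Lib.Perm.Centralizer

/-! Wielandt's theorem on primitive permutation groups of degree `2p`, concluded. -/

set_option autoImplicit false

namespace Cfsg.Lib.Small.W2p

open Matrix Finset MulAction Cfsg.Lib.PermChar Cfsg.Lib.Char Cfsg.Lib.Perm

variable {G Ω : Type*} [Group G] [Fintype G] [Fintype Ω] [DecidableEq Ω] [MulAction G Ω]
  {p : ℕ} [NeZero p]

section Rep

variable {V : Type*} [AddCommGroup V] [Module ℂ V] [FiniteDimensional ℂ V]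
  (ρ : Representation ℂ G V) {χ ψ : G → ℂ}

/-- Schur's lemma on the isotypic component of a constituent of multiplicity one. -/
theorem exists_mul_eId (hχ : IsIrrCharacter G χ) (h1 : classInner ρ.character χ = 1)
    {T : Module.End ℂ V} (hT : ∀ g, T * ρ g = ρ g * T) : ∃ c : ℂ, (T - c • 1) * eId ρ χ = 0 := by
  have h2 := eId_mul_self ρ hχ
  have h3 : (Module.finrank ℂ (LinearMap.range (eId ρ χ)) : ℂ) = χ 1 := by
    rw [← (LinearMap.IsIdempotentElem.isProj_range _ h2).trace, trace_eId ρ hχ.isCharacter, h1,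
      mul_one]
  have h4 : ∀ {S : Module.End ℂ V}, eId ρ χ * S = S * eId ρ χ →
      ∀ v ∈ LinearMap.range (eId ρ χ), S v ∈ LinearMap.range (eId ρ χ) := by
    rintro S hS _ ⟨v, rfl⟩
    exact ⟨S v, LinearMap.congr_fun hS v⟩
  haveI : Nontrivial (LinearMap.range (eId ρ χ)) := Module.nontrivial_of_finrank_pos (R := ℂ)
    (Nat.pos_of_ne_zero fun e => hχ.apply_one_ne_zero (by rw [← h3, e, Nat.cast_zero]))
  obtain ⟨c, hc⟩ := Module.End.exists_eigenvalue (T.restrict (h4 (eId_mul_comm ρ hT χ)))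
  obtain ⟨v, hv⟩ := hc.exists_hasEigenvector
  let K := LinearMap.range (eId ρ χ) ⊓ LinearMap.ker (T - c • 1)
  have h5 : ∀ g, K ≤ K.comap (ρ g) := fun g w hw =>
    ⟨h4 (eId_comm ρ hχ.isClassFunction g) w hw.1, by
      have h5 : T w = c • w := by simpa [sub_eq_zero] using hw.2
      have h6 : T (ρ g w) = ρ g (T w) := LinearMap.congr_fun (hT g) w
      simp [h6, h5]⟩
  have h6 : eId (ρ.subrepresentation K h5) χ = 1 := LinearMap.ext fun w => Subtype.ext <| by
    have h6 : eId ρ χ w = w := by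
      obtain ⟨w, ⟨u, rfl⟩, hw⟩ := w
      exact LinearMap.congr_fun h2 u
    refine Eq.trans ?_ h6
    simp [eId]
  have h7 := trace_eId (ρ.subrepresentation K h5) hχ.isCharacter
  obtain ⟨m, hm⟩ := (isCharacter_character (ρ.subrepresentation K h5)).exists_inner_eq_nat
    hχ.isCharacter
  rw [h6, LinearMap.trace_one, hm, ← h3, ← Nat.cast_mul, Nat.cast_inj] at h7
  have h8 : Module.finrank ℂ K ≠ 0 := fun e => hv.2 (Subtype.ext (
    (Submodule.eq_bot_iff _).1 (Submodule.finrank_eq_zero.1 e) v.1 ⟨v.2, by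
      simpa [sub_eq_zero] using congrArg Subtype.val hv.apply_eq_smul⟩))
  have h9 : K = LinearMap.range (eId ρ χ) := Submodule.eq_of_le_of_finrank_le inf_le_left
    (h7 ▸ Nat.le_mul_of_pos_right _ (Nat.pos_of_ne_zero fun e => h8 (by rw [h7, e, mul_zero])))
  exact ⟨c, LinearMap.ext fun w => (h9.ge ⟨w, rfl⟩).2⟩

theorem sum_inv_mul (hχ : IsIrrCharacter G χ) (hψ : IsCharacter G ψ) (x : G) :
    χ 1 / Nat.card G * ∑ g, χ g⁻¹ * ψ (g * x) = classInner ψ χ * χ x := by
  refine hψ.induction_on (P := fun ψ => χ 1 / Nat.card G * ∑ g, χ g⁻¹ * ψ (g * x) =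
    classInner ψ χ * χ x) (by simp) fun θ φ h1 _ h2 => ?_
  simp only [Pi.add_apply, mul_add, sum_add_distrib, h2, classInner_add_left, add_mul]
  congr 1
  by_cases e : θ = χ
  · have := hχ.apply_one_ne_zero
    have := card_ne_zero_complex G
    rw [e, hχ.sum_inv_mul_apply_mul_self, hχ.inner_self]
    field_simp
  · rw [h1.sum_inv_mul_apply_mul_of_ne hχ e, h1.inner_eq_zero_of_ne hχ e, mul_zero, zero_mul]

end Rep

theorem exists_setup [IsPretransitive G Ω] {e : Fin 2 × ZMod p ≃ Ω} {x : G}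
    (hx : ∀ i s, x • e (i, s) = e (i, s + 1)) {χ : G → ℂ} (hχ : IsIrrCharacter G χ)
    (h0 : χ ≠ fun _ => 1) (h1 : classInner (pc G Ω) χ = 1) (h2 : ∀ g, χ g⁻¹ = χ g)
    (h3 : ∀ n : ℕ, χ (x ^ n) = if (n : ZMod p) = 0 then p else 0) :
    Setup G ((2 : ℂ) • em Ω χ - 1) e := by
  have hp := NeZero.natCast_ne p ℂ
  have h4 : Eqv G (em Ω χ) := eqv_iff.2 fun g => by
    rw [PermChar.em, toLin'_toMatrix']
    exact eId_comm _ hχ.isClassFunction g
  have h5 : ∀ (n : ℕ) i s, x ^ n • e (i, s) = e (i, s + n) := fun n i s => by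
    induction n with
    | zero => simp
    | succ n ih => rw [pow_succ', mul_smul, ih, hx, Nat.cast_succ, add_assoc]
  have h6 : ∀ g : G, ∑ y, em Ω χ y (g • y) = χ g := fun g => by
    have h6 := sum_inv_mul hχ (isCharacter_card_fixedBy Ω) g
    rw [h1, one_mul] at h6
    simp only [em_apply, ← mul_sum]
    rw [sum_comm, ← h6]
    simp only [← mul_sum, ← mul_smul, sum_boole, Nat.card_eq_fintype_card, Fintype.card_subtype,
      mem_fixedBy, eq_comm]
  have h7 : ∀ s : ZMod p, em Ω χ (e (0, 0)) (e (0, s)) + em Ω χ (e (1, 0)) (e (1, s)) =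
      if s = 0 then 1 else 0 := fun s => by
    have h7 := h6 (x ^ s.val)
    have h8 : ∀ i t, em Ω χ (e (i, t)) (e (i, t + s)) = em Ω χ (e (i, 0)) (e (i, s)) := fun i t => by
      rw [← h4 (x ^ t.val) (e (i, 0)), h5, h5, ZMod.natCast_zmod_val, zero_add, add_comm]
    simp only [Setup.sum_row (e := e), h5, h3, ZMod.natCast_zmod_val, h8, sum_const, card_univ,
      ZMod.card, nsmul_eq_mul, ← mul_add] at h7
    refine mul_left_cancel₀ hp (h7.trans ?_)
    split_ifs <;> simp
  have h8 := em_mul_self (Ω := Ω) hχ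
  refine ⟨fun g u v => ?_, ?_, ?_, fun y => ?_, fun y => ?_, fun s => ?_, ⟨x, hx⟩, fun A hA => ?_⟩
  · simp only [Matrix.sub_apply, Matrix.smul_apply, h4 g, one_apply, smul_left_cancel_iff]
  · simp only [transpose_sub, transpose_smul, em_transpose, h2, transpose_one]
  · simp only [mul_sub, sub_mul, smul_mul_smul_comm, h8, mul_one, one_mul]
    module
  · have : ∑ z, em Ω χ y z = 0 := by
      simp only [em_apply, ← mul_sum]
      rw [sum_comm]
      simp only [← mul_sum, ← inv_smul_eq_iff, sum_ite_eq, mem_univ, if_true, mul_one, h2,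
        hχ.sum_eq_zero h0, mul_zero]
    simp [← mul_sum, this, one_apply]
  · obtain ⟨g, rfl⟩ := exists_smul_eq G (e (0, 0)) y
    obtain ⟨k, hk⟩ := exists_smul_eq G (e (0, 0)) (e (1, 0))
    have h9 := h7 0
    rw [← hk, h4, if_pos rfl] at h9
    simp only [Matrix.sub_apply, Matrix.smul_apply, h4 g, one_apply_eq, smul_eq_mul]
    linear_combination h9
  · have h9 := h7 s
    simp only [Matrix.sub_apply, Matrix.smul_apply, smul_eq_mul, one_apply, e.injective.eq_iff,
      Prod.mk.injEq, true_and, eq_comm (a := (0 : ZMod p))]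
    linear_combination 2 * h9
  · have hT := eqv_iff.1 hA
    obtain ⟨c, hc⟩ := exists_mul_eId (permRep ℂ G Ω) hχ (by rw [character_permRep, h1]) hT
    have h9 : (A - c • 1) * em Ω χ = 0 := by
      apply toLin'.injective
      rw [toLin'_mul, PermChar.em, toLin'_toMatrix', map_sub, map_smul, toLin'_one, map_zero]
      exact hc
    have h10 : em Ω χ * A = A * em Ω χ := by
      apply toLin'.injective
      rw [toLin'_mul, toLin'_mul, PermChar.em, toLin'_toMatrix']
      exact eId_mul_comm _ hT χ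
    have h11 : em Ω χ * (A - c • 1) = 0 := by
      rw [← h9, mul_sub, sub_mul, h10, Matrix.mul_smul, Matrix.smul_mul, mul_one, one_mul]
    exact ⟨c, by rw [mul_sub, Matrix.mul_smul, h9, mul_one, smul_zero, zero_sub],
      by rw [sub_mul, Matrix.smul_mul, h11, one_mul, smul_zero, zero_sub]⟩

omit [DecidableEq Ω] [NeZero p] in
/-- The constituent with a vector fixed by a semiregular element of order `p`. -/
theorem exists_irr [IsPretransitive G Ω] (hp : p.Prime) (hΩ : Nat.card Ω = 2 * p) {x : G}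
    (hx : orderOf x = p) (hf : ∀ y : Ω, x • y ≠ y) : ∃ χ, IsIrrCharacter G χ ∧
      χ ≠ (fun _ => 1) ∧ classInner (pc G Ω) χ = 1 ∧ (∀ g, χ g⁻¹ = χ g) ∧
      (∀ g ∈ Subgroup.zpowers x, g ≠ 1 → χ g = χ x) ∧ fixDim χ (Subgroup.zpowers x) = 1 := by
  classical
  haveI := Fact.mk hp
  have hπ : IsCharacter G (pc G Ω) := isCharacter_card_fixedBy Ω
  have hP : Nat.card (Subgroup.zpowers x) = p := by rw [Nat.card_zpowers, hx]
  obtain ⟨a⟩ := (Nat.card_pos_iff.1 (show 0 < Nat.card Ω by have := hp.pos; omega)).1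
  have h1 : fixDim (pc G Ω) (Subgroup.zpowers x) = 2 := by
    have := card_mul_fixDim_of_const (A := Subgroup.zpowers x) hπ (c := 0) fun g hg h => by
      rw [pc, Int.cast_zero, Nat.cast_eq_zero, Nat.card_eq_zero]
      refine Or.inl ⟨fun y => hf y.1 ?_⟩
      exact (show Subgroup.zpowers g ≤ stabilizer G y.1 from Subgroup.zpowers_le.2 y.2)
        (mem_zpowers_of_prime_card (G := Subgroup.zpowers x) (g := ⟨g, hg⟩)
          (g' := ⟨x, Subgroup.mem_zpowers x⟩) hP (by simpa using h) |>.imp fun k hk =>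
            congrArg Subtype.val hk)
    have h2 : charDegree (pc G Ω) = 2 * p := Nat.cast_injective (R := ℂ) (by
      rw [← hπ.apply_one_eq, pc, fixedBy_one_eq_univ, Nat.card_univ, hΩ])
    rw [hP, h2, mul_zero, add_zero, Nat.cast_mul, mul_comm] at this
    exact_mod_cast mul_right_cancel₀ (Nat.cast_ne_zero.2 hp.ne_zero) this
  obtain ⟨m, hm⟩ := hπ.exists_eq_sum_nat
  have h2 : ∀ χ : IrrCharacter G, classInner (pc G Ω) χ = m χ := fun χ => by
    rw [hm, classInner_sum_smul_irr fun χ => (m χ : ℂ)]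
  have h3 : ∑ χ, m χ * fixDim (χ : G → ℂ) (Subgroup.zpowers x) = 2 := by
    rw [← h1]
    apply Nat.cast_injective (R := ℂ)
    rw [fixDim_eq_inner hπ, Nat.cast_sum, hm, sum_congr rfl fun χ _ => by
      rw [Nat.cast_mul, fixDim_eq_inner χ.2.isCharacter, ← classInner_smul_left],
      ← classInner_sum_left]
    congr 1
    ext g
    simp
  have h4 : m (irrOne G) = 1 := 
    Nat.cast_eq_one.1 ((h2 (irrOne G)).symm.trans (inner_pc_one_of_trans a))
  rw [← add_sum_erase _ _ (mem_univ (irrOne G)), h4,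
    show fixDim (irrOne G : G → ℂ) (Subgroup.zpowers x) = 1 from fixDim_one] at h3
  replace h3 : ∑ χ ∈ univ.erase (irrOne G), m χ * fixDim (χ : G → ℂ) (Subgroup.zpowers x) = 1 := by
    omega
  obtain ⟨χ, h5, h6⟩ := exists_ne_zero_of_sum_ne_zero (h3 ▸ one_ne_zero)
  rw [← add_sum_erase _ _ h5] at h3
  have h7 : ∀ ψ ∈ univ.erase (irrOne G), ψ ≠ χ →
      m ψ * fixDim (ψ : G → ℂ) (Subgroup.zpowers x) = 0 := fun ψ h7 h8 =>
    (sum_eq_zero_iff (f := fun ψ : IrrCharacter G =>
      m ψ * fixDim (ψ : G → ℂ) (Subgroup.zpowers x))).1 (by omega) ψ (mem_erase.2 ⟨h8, h7⟩)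
  replace h6 : m χ * fixDim (χ : G → ℂ) (Subgroup.zpowers x) = 1 := by omega
  obtain ⟨h8, h9⟩ := mul_eq_one.1 h6
  have h10 : ∀ σ : ℂ ≃+* ℂ, ∀ g, σ ((χ : G → ℂ) g) = (χ : G → ℂ) g := fun σ => by
    have h10 := χ.2.map_ringEquiv σ
    refine congrFun (congrArg Subtype.val (by_contra fun e : ⟨_, h10⟩ ≠ χ => ?_))
    have h11 := h7 ⟨_, h10⟩ (mem_erase.2 ⟨fun e => ne_of_mem_erase h5 (Subtype.ext (funext fun g =>
      σ.injective ((congrFun (congrArg Subtype.val e) g).trans (map_one σ).symm))), mem_univ _⟩) e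
    have h12 := hπ.isGeneralizedCharacter.inner_map_ringHom χ.2.isGeneralizedCharacter
      (σ : ℂ →+* ℂ)
    have h13 := (χ.2.isGeneralizedCharacter.restrict (Subgroup.zpowers x)).inner_map_ringHom
      isGeneralizedCharacter_one (σ : ℂ →+* ℂ)
    simp only [map_natCast, map_one, RingHom.coe_coe] at h12 h13
    rw [h2, h8] at h12
    rw [← fixDim_eq_inner h10.isCharacter, ← fixDim_eq_inner χ.2.isCharacter, h9] at h13
    rw [Nat.cast_injective ((h2 ⟨_, h10⟩).symm.trans h12), Nat.cast_injective h13] at h11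
    exact one_ne_zero h11
  refine ⟨χ, χ.2, fun e => ne_of_mem_erase h5 (Subtype.ext e), by rw [h2, h8, Nat.cast_one],
    fun g => (χ.2.apply_inv g).trans (h10 (starRingAut) g), fun g hg h => ?_, h9⟩
  obtain ⟨k, rfl⟩ := mem_powers_iff_mem_zpowers.2 hg
  obtain ⟨σ, hσ⟩ := exists_ringEquiv_map_apply_eq_pow x (k := k) (by
    rw [hx, Nat.coprime_comm, hp.coprime_iff_not_dvd, ← hx, orderOf_dvd_iff_pow_eq_one]
    exact h)
  rw [← hσ _ χ.2.isGeneralizedCharacter, h10]

omit [DecidableEq Ω] [NeZero p] [Fintype G] [Fintype Ω] in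
theorem exists_equiv (hp : p.Prime) (hΩ : Nat.card Ω = 2 * p) {x : G} (hx : orderOf x = p)
    (hf : ∀ y : Ω, x • y ≠ y) : ∃ e : Fin 2 × ZMod p ≃ Ω, ∀ i s, x • e (i, s) = e (i, s + 1) := by
  haveI := Fact.mk hp
  have h0 := hp.pos
  obtain ⟨⟨a⟩, _⟩ := Nat.card_pos_iff.1 (show 0 < Nat.card Ω by omega)
  have h1 : ∀ (y : Ω) (s t : ZMod p), x ^ s.val • y = x ^ t.val • y → s = t := fun y s t h => by
    by_contra h1
    have h2 : x ^ ((s.val : ℤ) - t.val) ∈ stabilizer G y := by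
      rw [mem_stabilizer_iff, sub_eq_neg_add, _root_.zpow_add, mul_smul, zpow_natCast, h,
        _root_.zpow_neg, zpow_natCast, inv_smul_smul]
    refine hf y (Subgroup.zpowers_le.2 h2 (mem_zpowers_zpow_iff.2 ?_))
    rw [hx, ← Int.isCoprime_iff_gcd_eq_one, isCoprime_comm,
      (Nat.prime_iff_prime_int.1 hp).coprime_iff_not_dvd, ← ZMod.intCast_zmod_eq_zero_iff_dvd]
    simpa [sub_eq_zero] using h1
  obtain ⟨b, hb⟩ : ∃ b, b ∉ orbit (Subgroup.zpowers x) a := by
    by_contra! h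
    haveI : Finite (Subgroup.zpowers x) :=
      Nat.finite_of_card_ne_zero (by rw [Nat.card_zpowers]; omega)
    have := Nat.card_le_card_of_surjective (fun g : Subgroup.zpowers x => g • a) h
    rw [Nat.card_zpowers] at this
    omega
  have h2 : ∀ s t : ZMod p, x ^ s.val • a ≠ x ^ t.val • b := fun s t h =>
    hb ⟨⟨(x ^ t.val)⁻¹ * x ^ s.val, mul_mem (inv_mem (Subgroup.npow_mem_zpowers _ _))
      (Subgroup.npow_mem_zpowers _ _)⟩, by simp [mul_smul, h]⟩
  refine ⟨Equiv.ofBijective (fun z => x ^ z.2.val • ![a, b] z.1)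
    ((Nat.bijective_iff_injective_and_card _).2 ⟨?_, by simp [hΩ]⟩), fun i s => ?_⟩
  · rintro ⟨i, s⟩ ⟨j, t⟩ h
    fin_cases i <;> fin_cases j
    exacts [Prod.ext rfl (h1 _ _ _ h), absurd h (h2 _ _), absurd h.symm (h2 _ _),
      Prod.ext rfl (h1 _ _ _ h)]
  · simp only [Equiv.ofBijective_apply, ← mul_smul, ← pow_succ', ZMod.val_add, ZMod.val_one]
    rw [← pow_mod_orderOf, hx]

omit [DecidableEq Ω] [NeZero p] [Fintype G] [Fintype Ω] in
/-- **Wielandt's theorem** on primitive groups of degree `2p`. -/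
theorem wielandt [FaithfulSMul G Ω] [IsPreprimitive G Ω] (hp : p.Prime)
    (hΩ : Nat.card Ω = 2 * p) (a₀ : Ω) : IsMultiplyPretransitive G Ω 2 ∨
    Nat.card (orbitRel.Quotient (stabilizer G a₀) Ω) = 3 ∧
    ∃ a : ℕ, 0 < a ∧ p = 2 * a ^ 2 + 2 * a + 1 ∧ ∀ b, b ≠ a₀ →
      Nat.card (orbit (stabilizer G a₀) b) = a * (2 * a + 1) ∨
      Nat.card (orbit (stabilizer G a₀) b) = (a + 1) * (2 * a + 1) := by
  classical
  haveI := Fact.mk hp
  have h0 := hp.two_le
  haveI : Finite Ω := (Nat.card_pos_iff.1 (by omega)).2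
  haveI := finite_of_faithful G Ω
  haveI := Fintype.ofFinite G
  haveI := Fintype.ofFinite Ω
  obtain ⟨x, hx⟩ := exists_prime_orderOf_dvd_card' (G := G) p (by
    rw [card_eq_card_mul_stabilizer a₀, hΩ, mul_right_comm]
    exact dvd_mul_left _ _)
  have hx1 : x ≠ 1 := fun e => hp.ne_one (by rw [← hx, e, orderOf_one])
  by_cases hf : ∃ y : Ω, x • y = y
  · obtain ⟨y, hy⟩ := hf
    have h1 : orderOf (toPermHom G Ω x) = p := by
      rw [orderOf_injective _ (toPerm_injective (α := G) (β := Ω)), hx]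
    have h2 := Equiv.Perm.isCycle_of_prime_order (h1 ▸ hp) (by
      rw [h1, ← hΩ, Nat.card_eq_fintype_card]
      exact card_lt_univ_of_notMem (x := y) (by simpa using hy))
    have h3 : (fixedBy Ω x).ncard = p - 1 + 1 := by
      have h3 := Set.ncard_add_ncard_compl (fixedBy Ω x)
      rw [show (fixedBy Ω x)ᶜ = (toPermHom G Ω x).support by ext; simp, Set.ncard_coe_finset,
        ← h2.orderOf] at h3
      omega
    refine Or.inl (IsPreprimitive.is_two_pretransitive inferInstance h3 (by omega) ⟨fun a b => ?_⟩)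
    obtain ⟨k, hk⟩ := h2.exists_pow_eq a.2 b.2
    exact ⟨⟨x ^ k, (mem_fixingSubgroup_iff G).2 fun z hz => (stabilizer G z).pow_mem hz k⟩,
      Subtype.ext (by rw [← map_pow] at hk; exact hk)⟩
  push Not at hf
  obtain ⟨χ, h1, h2, h3, h4, h5, h6⟩ := exists_irr hp hΩ hx hf
  obtain ⟨c, h7, h8⟩ := exists_int_of_rational h1.isCharacter hp hx h5
  have hπ : IsCharacter G (pc G Ω) := isCharacter_card_fixedBy Ω
  have h9 : charDegree (pc G Ω) = 2 * p := Nat.cast_injective (R := ℂ) (by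
    rw [← hπ.apply_one_eq, pc, fixedBy_one_eq_univ, Nat.card_univ, hΩ])
  have h10 := hπ.sub_irr isIrrCharacter_one (by rw [inner_pc_one_of_trans a₀]; exact one_ne_zero)
  have h11 := h10.sub_irr h1 (by
    rw [classInner_sub_left, h3, isIrrCharacter_one.inner_eq_zero_of_ne h1 h2.symm]; simp)
  have h12 : charDegree (pc G Ω - (fun _ => 1) - χ) + charDegree χ + 1 = 2 * p :=
    Nat.cast_injective (R := ℂ) (by
      push_cast
      rw [← h11.apply_one_eq, ← h1.apply_one_eq, ← Nat.cast_ofNat, ← Nat.cast_mul, ← h9,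
        ← hπ.apply_one_eq]
      simp)
  have h13 := h1.charDegree_pos
  rw [h6] at h8
  obtain rfl | rfl | rfl : c = 1 ∨ c = 0 ∨ c = -1 := by
    zify at h0 h12 h13
    have h14 := Int.natCast_nonneg (charDegree (pc G Ω - (fun _ => 1) - χ))
    have : c < 2 := by push_cast at h8; nlinarith
    have : -2 < c := by push_cast at h8; nlinarith
    omega
  · exfalso
    haveI := h1.isCharacter.charKer_normal
    have h14 : χ 1 = 1 := by rw [h1.apply_one_eq, show charDegree χ = 1 by omega, Nat.cast_one]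
    haveI := isPretransitive_of_normal (α := Ω) (charKer χ) ((Subgroup.ne_bot_iff_exists_ne_one).2
      ⟨⟨x, h1.isCharacter.mem_charKer_iff.2 (by simp [h7, h14])⟩, by simpa using hx1⟩)
    have h15 := (fixDim_eq_inner (A := charKer χ) hπ).trans (inner_pc_one_of_trans (G := charKer χ) a₀)
    have h16 := card_mul_fixDim_of_const (A := charKer χ) h1.isCharacter (c := 1) fun g hg _ => by
      rw [h1.isCharacter.mem_charKer_iff.1 hg, h14, Int.cast_one]
    rw [show charDegree χ = 1 by omega, show ∀ a : ℤ, ((1 : ℕ) : ℤ) + (a - 1) * 1 = a * 1 by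
      intro a; simp, mul_right_inj' (Nat.cast_ne_zero.2 Nat.card_pos.ne'), Nat.cast_eq_one] at h16
    rw [← sub_add_cancel (pc G Ω) fun _ => 1, fixDim_add h10 isCharacter_one, fixDim_one,
      ← sub_add_cancel (pc G Ω - fun _ => 1) χ, fixDim_add h11 h1.isCharacter, h16,
      Nat.cast_eq_one] at h15
    omega
  · obtain ⟨e, he⟩ := exists_equiv hp hΩ hx hf
    refine Or.inr ((exists_setup he h1 h2 h3 h4 fun n => ?_).rank_three hp a₀)
    split_ifs with h <;> rw [ZMod.natCast_eq_zero_iff, ← hx, orderOf_dvd_iff_pow_eq_one] at h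
    · rw [h, h1.apply_one_eq, show charDegree χ = p by omega]
    · rw [h5 _ (Subgroup.npow_mem_zpowers _ _) h, h7, Int.cast_zero, Nat.cast_zero]
  · have h14 := h11.eq_zero_of_apply_one (by
      rw [h11.apply_one_eq, show charDegree (pc G Ω - (fun _ => 1) - χ) = 0 by omega, Nat.cast_zero])
    have h15 := inner_pc_self (G := G) a₀
    nth_rw 2 [show pc G Ω = (fun _ => 1) + χ by rw [← sub_eq_zero, ← sub_sub, h14]] at h15
    rw [classInner_add_right, h3, inner_pc_one_of_trans a₀, one_add_one_eq_two, eq_comm,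
      ← Nat.cast_ofNat, Nat.cast_inj, Nat.card_eq_two_iff' ⟦a₀⟧] at h15
    refine Or.inl (mt_succ_of_exists (is_one_pretransitive_iff.2 inferInstance) {a₀}
      (card_singleton _) fun a b ha hb => ?_)
    have h16 : ∀ a, a ∉ ({a₀} : Finset Ω) →
        (⟦a⟧ : orbitRel.Quotient (stabilizer G a₀) Ω) ≠ ⟦a₀⟧ := fun a ha e => by
      obtain ⟨g, hg⟩ := Quotient.exact e
      exact ha (mem_singleton.2 (hg.symm.trans g.2))
    obtain ⟨g, hg⟩ := Quotient.exact (h15.unique (h16 b hb) (h16 a ha))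
    exact ⟨g, fun z hz => mem_singleton.1 hz ▸ g.2, hg⟩

end Cfsg.Lib.Small.W2p
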