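import Mathlib

/-! Matrices on two cycles of length `p` commuting with the shift, and their Fourier transforms. -/

set_option autoImplicit false

namespace Cfsg.Lib.Small.W2p

open Matrix Finset

variable {p : ℕ} [NeZero p] {X Y M B : Matrix (Fin 2 × ZMod p) (Fin 2 × ZMod p) ℂ}

/-- Invariance under the shift. -/
def Inv (X : Matrix (Fin 2 × ZMod p) (Fin 2 × ZMod p) ℂ) : Prop :=
  ∀ i k s t, X (i, s) (k, t) = X (i, 0) (k, t - s)

/-- The Fourier transform. -/
noncomputable def ft (ψ : AddChar (ZMod p) ℂ) (X : Matrix (Fin 2 × ZMod p) (Fin 2 × ZMod p) ℂ) :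
    Matrix (Fin 2) (Fin 2) ℂ := of fun i k => ∑ s, X (i, 0) (k, s) * ψ s

variable (ψ : AddChar (ZMod p) ℂ)

theorem ft_apply (i k : Fin 2) : ft ψ X i k = ∑ s, X (i, 0) (k, s) * ψ s := rfl

theorem sum_mul_sum_char (f g : ZMod p → ℂ) :
    (∑ s, f s * ψ s) * ∑ s, g s * ψ s = ∑ s, (∑ t, f t * g (s - t)) * ψ s := by
  simp only [sum_mul]
  rw [sum_comm]
  refine sum_congr rfl fun t _ => ?_
  rw [mul_sum, ← Equiv.sum_comp (Equiv.subRight t)]
  refine sum_congr rfl fun s _ => ?_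
  have : ψ s = ψ t * ψ (s - t) := by rw [← AddChar.map_add_eq_mul, add_sub_cancel]
  rw [this, Equiv.subRight_apply]
  ring

theorem ft_mul (hY : Inv Y) : ft ψ (X * Y) = ft ψ X * ft ψ Y := by
  ext i k
  simp only [mul_apply, ft_apply, sum_mul_sum_char, Fintype.sum_prod_type]
  simp only [sum_mul]
  rw [sum_comm]
  exact sum_congr rfl fun j _ => sum_congr rfl fun s _ => sum_congr rfl fun t _ => by rw [hY]

theorem ft_neg : ft ψ (-X) = -ft ψ X := by
  ext i k
  simp [ft_apply]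

theorem sum_char (f : ZMod p → ℂ) : ∑ ψ : AddChar (ZMod p) ℂ, ∑ s, f s * ψ s = p * f 0 := by
  rw [sum_comm]
  simp [← mul_sum, AddChar.sum_apply_eq_ite, mul_comm]

omit [NeZero p] in
theorem Inv.transpose (h : Inv X) : Inv Xᵀ := fun i k s t => by
  rw [transpose_apply, transpose_apply, h k i t s, h k i (t - s) 0, zero_sub, neg_sub]

theorem two_by_two {M B : Matrix (Fin 2) (Fin 2) ℂ} (ht : M 0 0 + M 1 1 = 0) (h1 : B * M = -B)
    (h2 : M * B = -B) : (2 : ℂ) • B = B.trace • (1 - M) := by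
  have a := fun i j => congrFun (congrFun h1 i) j
  have b := fun i j => congrFun (congrFun h2 i) j
  simp only [mul_apply, Fin.sum_univ_two, Matrix.neg_apply] at a b
  ext i j
  fin_cases i <;> fin_cases j <;> simp [trace_fin_two]
  · linear_combination b 0 0 - a 1 1 + B 1 1 * ht
  · linear_combination a 0 1 + b 0 1 - B 0 1 * ht
  · linear_combination a 1 0 + b 1 0 - B 1 0 * ht
  · linear_combination b 1 1 - a 0 0 + B 0 0 * ht

variable (hM : Inv M) (hB : Inv B) (ht : ∀ s, M (0, 0) (0, s) + M (1, 0) (1, s) = 0)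
  (h1 : B * M = -B) (h2 : M * B = -B)
include hM hB ht h1 h2

theorem ft_eq : (2 : ℂ) • ft ψ B = (ft ψ B).trace • (1 - ft ψ M) :=
  two_by_two (by simp [ft_apply, ← sum_add_distrib, ← add_mul, ht])
    (by rw [← ft_mul ψ hM, h1, ft_neg]) (by rw [← ft_mul ψ hB, h2, ft_neg])

theorem sum_sq (hs : Mᵀ = M) : ∑ z, B (0, 0) z ^ 2 + ∑ z, B (1, 0) z ^ 2 =
    ∑ s, (B (0, 0) (0, s) + B (1, 0) (1, s)) ^ 2 := by
  have h3 : ∀ ψ : AddChar (ZMod p) ℂ,
      (ft ψ (B * Bᵀ)).trace = (ft ψ B).trace * (ft ψ Bᵀ).trace := fun ψ => by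
    have h4 := ft_eq ψ hM hB.transpose ht (by rw [← hs, ← transpose_mul, h2, transpose_neg])
      (by rw [← hs, ← transpose_mul, h1, transpose_neg])
    have h5 := congrArg (fun Z => (ft ψ B * Z).trace) h4
    simp only [Matrix.mul_smul, mul_sub, mul_one, ← ft_mul ψ hM, h1, ft_neg, trace_smul, trace_sub,
      trace_neg, smul_eq_mul] at h5
    rw [ft_mul ψ hB.transpose]
    linear_combination h5 / 2
  have h4 := sum_congr (rfl : (univ : Finset (AddChar (ZMod p) ℂ)) = _) fun ψ _ => h3 ψ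
  simp only [trace_fin_two, ft_apply, ← sum_add_distrib, ← add_mul, sum_mul_sum_char,
    sum_char] at h4
  replace h4 := mul_left_cancel₀ (NeZero.natCast_ne p ℂ) h4
  simp only [mul_apply, transpose_apply, ← sq, zero_sub] at h4
  rw [h4]
  refine sum_congr rfl fun s _ => ?_
  rw [hB 0 0 (-s), hB 1 1 (-s), zero_sub, neg_neg, sq]

omit hM hB ht h1 h2 in
/-- A rational function on `ZMod p` whose transform vanishes at a faithful character is
constant. -/
theorem exists_char (hp : p.Prime) : ∃ ψ : AddChar (ZMod p) ℂ, ∀ f : ZMod p → ℚ,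
    ∑ s, (f s : ℂ) * ψ s = 0 → ∀ s, f s = f 0 := by
  have hζ := Complex.isPrimitiveRoot_exp p hp.ne_zero
  refine ⟨AddChar.zmodChar p hζ.pow_eq_one, fun f hf s => ?_⟩
  obtain ⟨q, rfl⟩ := Nat.exists_eq_succ_of_ne_zero hp.ne_zero
  exact (hζ.sum_eq_zero_iff_forall_eq hp f).1 hf s 0

end Cfsg.Lib.Small.W2p
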